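import Groth.Agent.Dual.H380.PtLocal
import Groth.Agent.S1810
import Groth.Agent.PerfA.CohDim

/-!
# `f^! ω` for `f` proper over a Noetherian local ring with normalized dualizing complex `ω`

* `isDualizingSch_tilde_local`: `ω~` is a dualizing complex on `Spec A`;
* `hyp_local`: `a(ω~)` is locally given by dualizing complexes, normalized at all closed points
  (`PerfA.CohDim.Hyp`).
-/

set_option autoImplicit false

universe u

open CategoryTheory CategoryTheory.Limits AlgebraicGeometry

attribute [local instance] HasDerivedCategory.standard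

namespace Groth.Agent.Dual.H380.HypLocal

open Groth.Agent.LoccohB Groth.Agent.LoccohB.BassCrit
open Groth.Agent.PerfA.Restrict (restrictD)

/-- `ω~` is a dualizing complex on `Spec A`, `A` local. -/
theorem isDualizingSch_tilde_local (A : Type u) [CommRing A] [IsLocalRing A] [IsNoetherianRing A]
    (ω : Dual.D A) (hω : Dual.IsDualizing A ω)
    [∀ (U : Scheme.{u}) (j : U ⟶ Spec (CommRingCat.of A)) [IsOpenImmersion j],
      PreservesFiniteLimits (Scheme.Modules.restrictFunctor j)]
    [∀ (R : CommRingCat.{u}), PreservesFiniteLimits (tilde.functor R)]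
    (W : DCoh.D (Spec (CommRingCat.of A)))
    (hW : Nonempty (W ≅ (DCoh.tildeD (CommRingCat.of A)).obj ω)) :
    Dual2.IsDualizingSch (Spec (CommRingCat.of A)) W := by
  have hA : IsNoetherianRing (CommRingCat.of A) := inferInstanceAs (IsNoetherianRing A)
  have hS : IsNoetherian (Spec (CommRingCat.of A)) := inferInstance
  obtain ⟨eW⟩ := hW
  have e1 : Nonempty ((restrictD (𝟙 (Spec (CommRingCat.of A)))).obj W ≅
      (DCoh.tildeD (CommRingCat.of A)).obj ω) :=
    ⟨(PerfA.ExactD.mapDIso (Scheme.Modules.restrictFunctorId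
      (X := Spec (CommRingCat.of A))) ≪≫ PerfA.ExactD.mapDId _).app W ≪≫ eW⟩
  obtain ⟨a, b, h1, -, h2⟩ := HomBC.exists_bounds_of_isDualizing hω
  have hcoh : DCoh.IsCohD W := PerfA.QCohD.isCohD_of_iso eW.symm
    ((AdAffine.isCohD_tilde_iff (P := CommRingCat.of A) ω).2 hω.finite_cohomology)
  have hGE : W.IsGE a := by
    have h3 : ((DCoh.tildeD (CommRingCat.of A)).obj ω).IsGE a :=
      PerfA.ExactD.isGE_map (tilde.functor (CommRingCat.of A)) ω a
    exact DerivedCategory.TStructure.t.isGE_of_iso eW.symm a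
  obtain ⟨n, hn1, hn2⟩ := S0364.result A ω hω (IsLocalRing.maximalIdeal A)
  refine GoodSch.isDualizingSch_of_closedPoints _ W ⟨a, hGE⟩ hcoh n fun x hx => ?_
  refine ⟨A, inferInstance, 𝟙 _, inferInstance, IsLocalRing.maximalIdeal A, inferInstance, ω, n, ?_,
    e1, le_rfl, hn1, hn2⟩
  have hx' : (show PrimeSpectrum A from x) = IsLocalRing.closedPoint A := by
    have : (show PrimeSpectrum A from x).asIdeal.IsMaximal :=
      (PrimeSpectrum.isClosed_singleton_iff_isMaximal _).1 hx
    exact PrimeSpectrum.ext (IsLocalRing.eq_maximalIdeal this)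
  exact hx'.symm

/-- `a(ω~)` is locally given by dualizing complexes, normalized at all closed points. -/
theorem hyp_local (A : Type u) [CommRing A] [IsLocalRing A] [IsNoetherianRing A] (ω : Dual.D A)
    (hω : Dual.IsDualizing A ω) (hn : Dual.IsNormalized A ω) (X : Scheme.{u})
    (f : X ⟶ Spec (CommRingCat.of A)) [IsProper f] [DCoh.HasRpush f]
    (h : ∀ K : DCoh.D X, DCoh.IsQCohD K → DCoh.IsQCohD ((DCoh.Rpush f).obj K))
    (a : DCoh.DQCoh (Spec (CommRingCat.of A)) ⥤ DCoh.DQCoh X)
    (adj : (ObjectProperty.lift DCoh.IsQCohD (ObjectProperty.ι DCoh.IsQCohD ⋙ DCoh.Rpush f)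
      (fun K => h K.obj K.property)) ⊣ a)
    (W : DCoh.DQCoh (Spec (CommRingCat.of A)))
    (hW : Nonempty (W.obj ≅ (DCoh.tildeD (CommRingCat.of A)).obj ω)) :
    PerfA.CohDim.Hyp (a.obj W).obj := by
  have t1 : ∀ (R : CommRingCat.{u}), PreservesFiniteLimits (tilde.functor R) := fun R =>
    inferInstanceAs (PreservesFiniteLimits (tilde.functor (CommRingCat.of R)))
  have hA : IsNoetherianRing (CommRingCat.of A) := inferInstanceAs (IsNoetherianRing A)
  have hS : IsNoetherian (Spec (CommRingCat.of A)) := inferInstance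
  have hDW := isDualizingSch_tilde_local A ω hω W.obj hW
  have hDX : Dual2.IsDualizingSch X (a.obj W).obj :=
    S1810.result X (Spec (CommRingCat.of A)) f h a adj W hDW
  refine ⟨fun B _ j _ => hDX B j, ?_⟩
  intro B _ j _ ωB e m hm y hy hc i hi
  obtain rfl := hy
  exact (PtLocal.point_local f j (Ega1.ADualUniv.univ_of_adj adj W) hω hn hW y.asIdeal hc ⟨e⟩).1 i hi

end Groth.Agent.Dual.H380.HypLocal
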