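import Groth.Agent.Ega1.PtCrit2
import Groth.Agent.S0366
import Mathlib.RingTheory.KrullDimension.Module
import Mathlib.RingTheory.Ideal.KrullsHeightTheorem

/-!
# The shift of the right adjoint of `Rf_*` at closed points, `f` proper over a local ring

* `point_crit'`: variant of `PtUniv.point_crit` in which the bounds for `Hom(M, ω_R[i])` are only required
  for the `R`-modules `M = B/m` (through finite ring maps `R → B/m`).
* `subsingleton_local`: over a Noetherian local ring `R` with normalized dualizing complex `ω`,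
  `Hom(κ, ω[i]) = 0` for `i ≠ 0`, `κ` a field finite over `R`.
* `point_local`: for `f : X ⟶ Spec R` proper, `R` local with normalized dualizing complex, `Hom(κ(x), f^! ω[i])`
  vanishes for `i ≠ 0`, and is `κ(x)` for `i = 0`, at every closed point `x` of `X`.
-/

set_option autoImplicit false

universe u

open CategoryTheory CategoryTheory.Limits AlgebraicGeometry

attribute [local instance] HasDerivedCategory.standard

namespace Groth.Agent.Dual.H380.PtLocal

open Groth.Agent.Dcoh.DerSch Groth.Agent.Ega1.ADualUniv Groth.Agent.LoccohB Groth.Agent.Ega1.PtUniv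
open Groth.Agent.PerfA.Restrict (restrictD)

section Main

variable {X Y : Scheme.{u}} (f : X ⟶ Y) [IsProper f] [DCoh.HasRpush f]
  {K : DCoh.D Y} {L : DCoh.D X} {B R : Type u} [CommRing B] [CommRing R]
  (jB : Spec (CommRingCat.of B) ⟶ X) [IsOpenImmersion jB] (jR : Spec (CommRingCat.of R) ⟶ Y)
  [IsOpenImmersion jR] [∀ (R : CommRingCat.{u}), PreservesFiniteLimits (tilde.functor R)]

/-- The criterion at a closed point, with bounds only for residue fields. -/
theorem point_crit' (h : Univ f K L) (m : Ideal B) [hm : m.IsMaximal]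
    (hcl : IsClosed ({jB ⟨m, hm.isPrime⟩} : Set X))
    (hR : f (jB ⟨m, hm.isPrime⟩) ∈ Set.range jR)
    {ωB : Dual.D B} (eB : Nonempty ((restrictD jB).obj L ≅ (DCoh.tildeD (CommRingCat.of B)).obj ωB))
    {ωR : Dual.D R} (eR : Nonempty ((restrictD jR).obj K ≅ (DCoh.tildeD (CommRingCat.of R)).obj ωR))
    (hωR : Dual.IsDualizing R ωR) (a b : ℤ)
    (hab : ∀ (φ : R →+* B ⧸ m), φ.Finite → ∀ (i : ℤ), (i < a ∨ b < i) →
      Subsingleton (Dual.inD R ((ModuleCat.restrictScalars.{u} φ).obj
        (ModuleCat.of (B ⧸ m) (B ⧸ m))) ⟶ ωR⟦i⟧)) :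
    ∃ d : ℤ, a ≤ d ∧ d ≤ b ∧ (∀ i : ℤ, i ≠ d → Subsingleton (Dual.inD B (B ⧸ m) ⟶ ωB⟦i⟧)) ∧
      Nonempty ((Dual.inD B (B ⧸ m) ⟶ ωB⟦d⟧) ≃ₗ[B] (B ⧸ m)) := by
  have hκ : IsField (B ⧸ m) := (Ideal.Quotient.maximal_ideal_iff_isField_quotient m).1 hm
  let κ : CommRingCat.{u} := CommRingCat.of (B ⧸ m)
  let ψ : CommRingCat.of B ⟶ κ := CommRingCat.ofHom (Ideal.Quotient.mk m)
  have hκ' : IsField κ := hκ
  have hsub : Subsingleton (Spec κ) := by
    let := hκ'.toField
    exact inferInstanceAs (Subsingleton (PrimeSpectrum κ))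
  have hne : Nonempty (Spec κ) := by
    let := hκ'.toField
    exact inferInstanceAs (Nonempty (PrimeSpectrum κ))
  have hpt : ∀ z : Spec κ, (Spec.map ψ) z = (⟨m, hm.isPrime⟩ : PrimeSpectrum B) := by
    intro z
    apply PrimeSpectrum.ext
    change Ideal.comap (Ideal.Quotient.mk m) (z : PrimeSpectrum κ).asIdeal = m
    let := hκ'.toField
    have hz : (z : PrimeSpectrum κ).asIdeal = ⊥ := by
      rcases Ideal.eq_bot_or_top (z : PrimeSpectrum κ).asIdeal with h | h
      · exact h
      · exact ((z : PrimeSpectrum κ).isPrime.ne_top h).elim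
    rw [hz]
    exact Ideal.mk_ker
  have hrange : Set.range (Spec.map ψ ≫ jB) = {jB ⟨m, hm.isPrime⟩} := by
    ext x
    simp only [Set.mem_range, Set.mem_singleton_iff]
    constructor
    · rintro ⟨z, rfl⟩
      rw [Scheme.Hom.comp_apply, hpt z]
    · rintro rfl
      obtain ⟨z⟩ := hne
      exact ⟨z, by rw [Scheme.Hom.comp_apply, hpt z]⟩
  have hcl' : IsClosed (Set.range (Spec.map ψ ≫ jB)) := by rw [hrange]; exact hcl
  have hR' : Set.range ((Spec.map ψ ≫ jB) ≫ f) ⊆ Set.range jR := by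
    rintro _ ⟨z, rfl⟩
    rw [Scheme.Hom.comp_apply, Scheme.Hom.comp_apply, hpt z]
    exact hR
  obtain ⟨φ, hc, hφ⟩ := exists_finite_map f jB jR ψ hκ' Ideal.Quotient.mk_surjective hcl' hR'
  obtain ⟨ε⟩ := exists_radj_iso f jB jR ψ φ h hκ' hc hcl' eB eR (RAdj.coextAdj ψ.hom)
    (RAdj.coextAdj φ.hom)
  have := hωR.isNoetherianRing
  have hκN : IsNoetherianRing (B ⧸ m) := by
    let := hκ.toField
    infer_instance
  have hd : Dual.IsDualizing (B ⧸ m) ((RAdj.RCoext φ.hom).obj ωR) := by
    algebraize [φ.hom]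
    have : Module.Finite R (B ⧸ m) := hφ
    exact S1772.result R (B ⧸ m) (RAdj.RCoext φ.hom) (RAdj.coextAdj φ.hom) ωR hωR
  have hd' : Dual.IsDualizing (B ⧸ m) ((RAdj.RCoext ψ.hom).obj ωB) :=
    HomBC.isDualizing_of_iso ε.symm hd
  obtain ⟨d, h1, h2, h3⟩ := crit_of_dualizing m (RAdj.coextAdj (Ideal.Quotient.mk m)) ωB hd'
  have key : ¬ (d < a ∨ b < d) := by
    intro hab'
    have h4 : Subsingleton (Dual.HD (B ⧸ m) ((RAdj.RCoext φ.hom).obj ωR) d) :=
      (RAdjFin.hdRadjEquiv (RAdj.coextAdj φ.hom) ωR d).toEquiv.subsingleton_congr.2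
        (hab φ.hom hφ d hab')
    have h5 : Subsingleton (Dual.HD (B ⧸ m) ((RAdj.RCoext ψ.hom).obj ωB) d) :=
      (((DerivedCategory.homologyFunctor (ModuleCat.{u} (B ⧸ m)) d).mapIso
        ε).toLinearEquiv.toEquiv.subsingleton_congr).2 h4
    exact not_subsingleton_iff_nontrivial.2 h3 h5
  push Not at key
  exact ⟨d, key.1, key.2, h1, h2⟩

end Main

section Local

variable {R : Type u} [CommRing R] [IsLocalRing R] [IsNoetherianRing R] {ω : Dual.D R}

omit [IsNoetherianRing R] in
/-- The support of a field finite over a local ring is a point. -/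
theorem supportDim_finite_field {κ : Type u} [CommRing κ] (hκ : IsField κ) (φ : R →+* κ)
    (hφ : φ.Finite) :
    Module.supportDim R ((ModuleCat.restrictScalars.{u} φ).obj (ModuleCat.of κ κ)) = (0 : ℕ) := by
  let M := (ModuleCat.restrictScalars.{u} φ).obj (ModuleCat.of κ κ)
  have hfin : Module.Finite R M := hφ
  have hnt : Nontrivial M := by
    have := hκ.nontrivial
    exact inferInstanceAs (Nontrivial κ)
  have hker : RingHom.ker φ = IsLocalRing.maximalIdeal R := by
    have hprime : (RingHom.ker φ).IsPrime := by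
      let := hκ.toField
      exact RingHom.ker_isPrime φ
    have hint : φ.IsIntegral := hφ.to_isIntegral
    have hmax : (RingHom.ker φ).IsMaximal := by
      have hb : (⊥ : Ideal κ).IsMaximal := by
        let := hκ.toField
        exact Ideal.bot_isMaximal
      rw [RingHom.ker_eq_comap_bot]
      exact Ideal.isMaximal_comap_of_isIntegral_of_isMaximal' φ hint ⊥
    exact IsLocalRing.eq_maximalIdeal hmax
  have hann : Module.annihilator R M = IsLocalRing.maximalIdeal R := by
    rw [← hker]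
    ext r
    rw [Module.mem_annihilator, RingHom.mem_ker]
    constructor
    · intro h
      have h1 : φ r * 1 = 0 := h (1 : κ)
      rwa [mul_one] at h1
    · intro h x
      change (φ r * (show κ from x) : κ) = 0
      rw [h, zero_mul]
  have hsupp : Module.support R M = {IsLocalRing.closedPoint R} := by
    rw [Module.support_eq_zeroLocus, hann]
    ext p
    simp only [PrimeSpectrum.mem_zeroLocus, Set.mem_singleton_iff]
    constructor
    · intro h
      apply PrimeSpectrum.ext
      exact le_antisymm (IsLocalRing.le_maximalIdeal p.isPrime.ne_top) h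
    · rintro rfl
      exact le_refl _
  change Order.krullDim (Module.support R M) = _
  rw [hsupp]
  exact Order.krullDim_eq_zero_of_unique

/-- `Hom(κ, ω[i]) = 0` for `i ≠ 0`, `κ` a field finite over `R`, `ω` a normalized dualizing complex. -/
theorem subsingleton_local (hω : Dual.IsDualizing R ω) (hn : Dual.IsNormalized R ω)
    {κ : Type u} [CommRing κ] (hκ : IsField κ) (φ : R →+* κ) (hφ : φ.Finite) (i : ℤ)
    (hi : i < 0 ∨ 0 < i) :
    Subsingleton (Dual.inD R ((ModuleCat.restrictScalars.{u} φ).obj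
        (ModuleCat.of κ κ)) ⟶ ω⟦i⟧) := by
  have hfin : Module.Finite R ((ModuleCat.restrictScalars.{u} φ).obj (ModuleCat.of κ κ)) := hφ
  by_contra h
  have h1 := (S0366.result R ω hω hn ((ModuleCat.restrictScalars.{u} φ).obj (ModuleCat.of κ κ)) 0
    (supportDim_finite_field hκ φ hφ) i).1 (not_subsingleton_iff_nontrivial.1 h)
  push_cast at h1
  omega

variable {X : Scheme.{u}} (f : X ⟶ Spec (CommRingCat.of R)) [IsProper f] [DCoh.HasRpush f]
  {K : DCoh.D (Spec (CommRingCat.of R))} {L : DCoh.D X} {B : Type u} [CommRing B]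
  (jB : Spec (CommRingCat.of B) ⟶ X) [IsOpenImmersion jB]
  [∀ (R : CommRingCat.{u}), PreservesFiniteLimits (tilde.functor R)]

/-- The complex `f^! ω` at a closed point, `ω` a normalized dualizing complex. -/
theorem point_local (h : Univ f K L) (hω : Dual.IsDualizing R ω) (hn : Dual.IsNormalized R ω)
    (eR : Nonempty (K ≅ (DCoh.tildeD (CommRingCat.of R)).obj ω))
    (m : Ideal B) [hm : m.IsMaximal]
    (hcl : IsClosed ({jB ⟨m, hm.isPrime⟩} : Set X))
    {ωB : Dual.D B} (eB : Nonempty ((restrictD jB).obj L ≅ (DCoh.tildeD (CommRingCat.of B)).obj ωB)) :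
    (∀ i : ℤ, i ≠ 0 → Subsingleton (Dual.inD B (B ⧸ m) ⟶ ωB⟦i⟧)) ∧
      Nonempty ((Dual.inD B (B ⧸ m) ⟶ ωB⟦(0 : ℤ)⟧) ≃ₗ[B] (B ⧸ m)) := by
  have hκ : IsField (B ⧸ m) := (Ideal.Quotient.maximal_ideal_iff_isField_quotient m).1 hm
  have e1 : Nonempty ((restrictD (𝟙 (Spec (CommRingCat.of R)))).obj K ≅
      (DCoh.tildeD (CommRingCat.of R)).obj ω) := by
    obtain ⟨e⟩ := eR
    exact ⟨(PerfA.ExactD.mapDIso (Scheme.Modules.restrictFunctorId
      (X := Spec (CommRingCat.of R))) ≪≫ PerfA.ExactD.mapDId _).app K ≪≫ e⟩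
  obtain ⟨d, h1, h2, h3, h4⟩ := point_crit' f jB (𝟙 (Spec (CommRingCat.of R))) h m hcl
    ⟨_, rfl⟩ eB e1 hω 0 0 (fun φ hφ i hi => subsingleton_local hω hn hκ φ hφ i hi)
  obtain rfl : d = 0 := le_antisymm h2 h1
  exact ⟨h3, h4⟩

end Local

end Groth.Agent.Dual.H380.PtLocal
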